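import Mathlib
import Cfsg.Agent.Components.Basic
import Cfsg.Agent.CoprimeAction.Basic
import Cfsg.Agent.CoprimeAction.Abelian
import Cfsg.Agent.CoprimeAction.Invariant
import Cfsg.Agent.CoprimeAction.Frattini
import Cfsg.Agent.CoprimeAction.Factorization
import Cfsg.Agent.PLocalBasics.Misc

/-!
Small facts used for isolated `p`-minimal subgroups.
-/

set_option autoImplicit false

namespace CfsgLib.IsolatedPMin

open Subgroup
open scoped commutatorElement Pointwise

variable {X : Type*} [Group X]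

/-- A subgroup normalizing two subgroups normalizes their commutator. -/
theorem le_normalizer_comm {S A B : Subgroup X} (hA : S ≤ normalizer (A : Set X))
    (hB : S ≤ normalizer (B : Set X)) : S ≤ normalizer ((⁅A, B⁆ : Subgroup X) : Set X) := by
  intro s hs
  rw [mem_normalizer_iff_map_conj_eq, map_commutator, mem_normalizer_iff_map_conj_eq.1 (hA hs),
    mem_normalizer_iff_map_conj_eq.1 (hB hs)]

/-- `H` normalizes `K` as soon as each of its conjugations maps `K` into itself. -/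
theorem le_normalizer_of_conj_le [Finite X] {H K : Subgroup X}
    (h : ∀ g ∈ H, K.map (MulAut.conj g).toMonoidHom ≤ K) : H ≤ normalizer (K : Set X) := by
  intro g hg
  rw [mem_normalizer_iff_map_conj_eq]
  exact eq_of_le_of_card_ge (h g hg) (le_of_eq (card_map_of_injective (MulAut.conj g).injective).symm)

/-- An element of order prime to `p` in `US`, `S` a `p`-group, lies in `U`. -/
theorem mem_of_coprime_sup [Finite X] {p : ℕ} {U S : Subgroup X} (hS : IsPGroup p S)
    (hn : S ≤ normalizer (U : Set X)) {x : X} (hx : x ∈ U ⊔ S) (hc : (orderOf x).Coprime p) :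
    x ∈ U := by
  rw [sup_comm] at hx
  obtain ⟨s, hs, u, hu, rfl⟩ := CfsgLib.CoprimeAction.exists_mul_of_mem_sup hn hx
  have key : ∀ n : ℕ, ∃ v ∈ U, (s * u) ^ n = s ^ n * v := by
    intro n
    induction n with
    | zero => exact ⟨1, U.one_mem, by simp⟩
    | succ n ih =>
      obtain ⟨v, hv, hvn⟩ := ih
      refine ⟨s⁻¹ * v * s * u, U.mul_mem ?_ hu, ?_⟩
      · have := CfsgLib.CoprimeAction.conj_mem hn (inv_mem hs) hv
        simpa using this
      · rw [pow_succ, hvn, pow_succ]; group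
  obtain ⟨k, hk⟩ := hS ⟨s, hs⟩
  have hk' : s ^ p ^ k = 1 := by simpa using congrArg Subtype.val hk
  obtain ⟨v, hv, hvn⟩ := key (p ^ k)
  rw [hk', one_mul] at hvn
  obtain ⟨m, hm⟩ := exists_pow_eq_self_of_coprime (x := s * u) (n := p ^ k) (hc.symm.pow_left k)
  rw [← hm, hvn]
  exact U.pow_mem hv m

theorem eq_bot_of_self_comm {K : Subgroup X} (hK : ⁅K, K⁆ = K) {Y : Subgroup X} (hKY : K ≤ Y)
    (h : ⁅K, Y⁆ = ⊥) : K = ⊥ := by
  rw [eq_bot_iff, ← h]
  calc K = ⁅K, K⁆ := hK.symm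
    _ ≤ ⁅K, Y⁆ := commutator_mono le_rfl hKY

/-- A solvable subgroup equal to its commutator subgroup is trivial. -/
theorem eq_bot_of_perfect_solvable [Finite X] {Y : Subgroup X} (h : ⁅Y, Y⁆ = Y)
    (hs : Group.IsSolvable ↥Y) : Y = ⊥ := by
  by_contra hne
  haveI : Nontrivial ↥Y := (nontrivial_iff_ne_bot Y).2 hne
  haveI := hs
  refine (Group.IsSolvable.commutator_lt_top_of_nontrivial ↥Y).ne ?_
  refine map_injective Y.subtype_injective ?_
  rw [map_subtype_commutator, h, ← MonoidHom.range_eq_map, Subgroup.range_subtype]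

/-- Complements in an elementary abelian subgroup. -/
theorem exists_compl [Finite X] {t : ℕ} (ht : t.Prime) {V U : Subgroup X} (hc : V ≤ centralizer (V : Set X))
    (he : ∀ v ∈ V, v ^ t = 1) (hU : U ≤ V) : ∃ W : Subgroup X, W ≤ V ∧ U ⊓ W = ⊥ ∧ U ⊔ W = V := by
  obtain ⟨W, ⟨hW, hUW⟩, hmax⟩ := (Set.toFinite {W : Subgroup X | W ≤ V ∧ U ⊓ W = ⊥}).exists_maximal
    ⟨⊥, bot_le, inf_bot_eq _⟩
  refine ⟨W, hW, hUW, le_antisymm (sup_le hU hW) fun v hv => ?_⟩
  by_contra hvn
  have hz : zpowers v ≤ V := zpowers_le.2 hv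
  have hne : U ⊓ (W ⊔ zpowers v) ≠ ⊥ := fun h => hvn
    (mem_sup_right (hmax (y := W ⊔ zpowers v) ⟨sup_le hW hz, h⟩ le_sup_left
      (mem_sup_right (mem_zpowers v))))
  obtain ⟨⟨x, hx⟩, hx1⟩ := Subgroup.ne_bot_iff_exists_ne_one.1 hne
  obtain ⟨hxU, hxW⟩ := mem_inf.1 hx
  rw [sup_comm] at hxW
  obtain ⟨z, hz', w, hw, hzw⟩ := CfsgLib.CoprimeAction.exists_mul_of_mem_sup
    ((hz.trans (hc.trans (centralizer_le (SetLike.coe_subset_coe.2 hW)))).trans (centralizer_le_normalizer _)) hxW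
  obtain ⟨i, rfl⟩ := mem_zpowers_iff.1 hz'
  have hvt : v ^ (t : ℤ) = 1 := by rw [zpow_natCast, he v hv]
  by_cases hi : (t : ℤ) ∣ i
  · obtain ⟨j, rfl⟩ := hi
    rw [zpow_mul, hvt, one_zpow, one_mul] at hzw
    subst hzw
    exact hx1 (Subtype.ext (mem_bot.1 (hUW ▸ mem_inf.2 ⟨hxU, hw⟩)))
  · obtain ⟨a, b, hab⟩ := (Nat.prime_iff_prime_int.1 ht).coprime_iff_not_dvd.2 hi
    have hvi : v ^ i ∈ U ⊔ W := by
      rw [eq_mul_inv_of_mul_eq hzw]
      exact mul_mem (mem_sup_left hxU) (inv_mem (mem_sup_right hw))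
    refine hvn ?_
    have e : v = (v ^ i) ^ b := by
      conv_lhs => rw [← zpow_one v, ← hab, zpow_add, mul_comm a, zpow_mul, hvt, one_zpow, one_mul,
        mul_comm b, zpow_mul]
    rw [e]
    exact zpow_mem hvi b

end CfsgLib.IsolatedPMin
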