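import Cfsg.Agent.IsolatedPMin.Basic
import Cfsg.Agent.Components.FStar
import Cfsg.Agent.Subnormal.Basic

/-!
The configuration of an isolated `p`-minimal subgroup in a group with trivial `p`-core.
-/

set_option autoImplicit false

namespace CfsgLib.IsolatedPMin

open Subgroup
open scoped commutatorElement Pointwise

variable {X : Type*} [Group X]

/-- The configuration: `A` stands for `O^p(P)`, `Q` for `O_p(L)`, `Y` for the normal closure of `A`. -/
structure Ctx (p : ℕ) (S L A Q Y : Subgroup X) : Prop where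
  bot : Cfsg.pCore p X = ⊥
  hS : IsPGroup p S
  SL : S ≤ L
  QS : Q ≤ S
  LQ : L ≤ normalizer (Q : Set X)
  Q1 : Q ≠ ⊥
  sup : L ⊔ A = ⊤
  SA : S ≤ normalizer (A : Set X)
  hY : Y = normalClosure (A : Set X)
  gen : ∀ U : Subgroup X, (∀ x ∈ A, (orderOf x).Coprime p → x ∈ U) → A ≤ U
  dich : ∀ H : Subgroup X, S ≤ H → A ≤ H ∨ H ≤ L

variable [Finite X] {p : ℕ} [hp : Fact p.Prime] {S L A Q Y : Subgroup X}

theorem Ctx.sn_bot (c : Ctx p S L A Q Y) {U : Subgroup X} (hU : U.IsSubnormal) (hUp : IsPGroup p U) :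
    U = ⊥ :=
  le_bot_iff.1 (c.bot ▸ CfsgLib.Components.subnormal_le_pCore hU hUp)

theorem Ctx.Qp (c : Ctx p S L A Q Y) : IsPGroup p Q := c.hS.to_le c.QS

theorem Ctx.A_not_normalizer (c : Ctx p S L A Q Y) : ¬ A ≤ normalizer (Q : Set X) := by
  intro h
  haveI : Q.Normal := normalizer_eq_top_iff.1 (top_le_iff.1 (c.sup.ge.trans (sup_le c.LQ h)))
  exact c.Q1 (c.sn_bot (Subgroup.Normal.isSubnormal inferInstance) c.Qp)

theorem Ctx.A_not_centralizer (c : Ctx p S L A Q Y) : ¬ A ≤ centralizer (Q : Set X) :=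
  fun h => c.A_not_normalizer (h.trans (centralizer_le_normalizer _))

theorem Ctx.A_not_L (c : Ctx p S L A Q Y) : ¬ A ≤ L := fun h => c.A_not_normalizer (h.trans c.LQ)

theorem Ctx.Y_normal (c : Ctx p S L A Q Y) : Y.Normal := c.hY ▸ normalClosure_normal

theorem Ctx.AY (c : Ctx p S L A Q Y) : A ≤ Y := c.hY ▸ le_normalClosure

theorem Ctx.Y_not_L (c : Ctx p S L A Q Y) : ¬ Y ≤ L := fun h => c.A_not_L (c.AY.trans h)

theorem Ctx.Y_ne_bot (c : Ctx p S L A Q Y) : Y ≠ ⊥ := fun h => c.Y_not_L (h ▸ bot_le)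

theorem Ctx.dich_inv (c : Ctx p S L A Q Y) {U : Subgroup X} (hU : S ≤ normalizer (U : Set X)) :
    A ≤ U ∨ U ≤ L := by
  rcases c.dich (U ⊔ S) le_sup_right with h | h
  · exact Or.inl (c.gen U fun x hx hc => mem_of_coprime_sup c.hS hU (h hx) hc)
  · exact Or.inr (le_sup_left.trans h)

theorem Ctx.Y_le (c : Ctx p S L A Q Y) {N : Subgroup X} (hN : N.Normal) (h : A ≤ N) : Y ≤ N := by
  rw [c.hY]
  haveI := hN
  exact normalClosure_le_normal h

theorem Ctx.dich_normal (c : Ctx p S L A Q Y) {N : Subgroup X} (hN : N.Normal) : Y ≤ N ∨ N ≤ L := by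
  rcases c.dich_inv (U := N) (by rw [normalizer_eq_top_iff.2 hN]; exact le_top) with h | h
  · exact Or.inl (c.Y_le hN h)
  · exact Or.inr h

/-- A subnormal subgroup of `L` normalized by `Q` is centralized by `Q`. -/
theorem Ctx.cent (c : Ctx p S L A Q Y) {U : Subgroup X} (hU : U.IsSubnormal) (hUL : U ≤ L)
    (hQU : Q ≤ normalizer (U : Set X)) : ⁅U, Q⁆ = ⊥ := by
  have h1 : ⁅U, Q⁆ ≤ U ⊓ Q := le_inf (CfsgLib.CoprimeAction.commutator_le_of_normalizer hQU)
    (by rw [commutator_comm]; exact CfsgLib.CoprimeAction.commutator_le_of_normalizer (hUL.trans c.LQ))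
  have h2 : U ⊓ Q = ⊥ := c.sn_bot
    (CfsgLib.Components.subnormal_of_normal_le inf_le_left
      ((le_inf le_normalizer (hUL.trans c.LQ)).trans inf_normalizer_le_normalizer_inf) hU)
    (c.Qp.to_le inf_le_right)
  exact le_bot_iff.1 (h2 ▸ h1)

/-- A normal subgroup inside `L` centralizes `Y`. -/
theorem Ctx.normal_cent (c : Ctx p S L A Q Y) {N : Subgroup X} (hN : N.Normal) (hNL : N ≤ L) :
    ⁅N, Y⁆ = ⊥ := by
  haveI := hN
  have h := c.cent (U := N) hN.isSubnormal hNL (by rw [normalizer_eq_top_iff.2 hN]; exact le_top)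
  have hQC : Q ≤ centralizer (N : Set X) := by
    rw [← commutator_eq_bot_iff_le_centralizer, commutator_comm]; exact h
  have hC : (centralizer (N : Set X)).Normal := normal_centralizer
  rcases c.dich_normal hC with h1 | h1
  · rw [commutator_comm, commutator_eq_bot_iff_le_centralizer]; exact h1
  · exact absurd (c.sn_bot (CfsgLib.Components.subnormal_of_normal_le hQC (h1.trans c.LQ) hC.isSubnormal) c.Qp)
      c.Q1

theorem Ctx.normal_in (c : Ctx p S L A Q Y) {N : Subgroup X} (hN : N.Normal) (hNY : N ≤ Y) :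
    N = Y ∨ (N ≤ L ∧ ⁅N, Y⁆ = ⊥) := by
  rcases c.dich_normal hN with h | h
  · exact Or.inl (le_antisymm hNY h)
  · exact Or.inr ⟨h, c.normal_cent hN h⟩

theorem Ctx.normal_of (c : Ctx p S L A Q Y) {U : Subgroup X} (hA : A ≤ normalizer (U : Set X))
    (hL : L ≤ normalizer (U : Set X)) : U.Normal :=
  normalizer_eq_top_iff.1 (top_le_iff.1 (c.sup.ge.trans (sup_le hL hA)))

theorem Ctx.le_normalizer_Y (c : Ctx p S L A Q Y) (U : Subgroup X) : U ≤ normalizer (Y : Set X) := by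
  rw [normalizer_eq_top_iff.2 c.Y_normal]; exact le_top

theorem Ctx.comm_normal (c : Ctx p S L A Q Y) : (⁅Y, Q⁆ : Subgroup X).Normal :=
  c.normal_of (c.AY.trans CfsgLib.CoprimeAction.self_le_normalizer_commutator)
    (le_normalizer_comm (c.le_normalizer_Y L) c.LQ)

theorem Ctx.comm_le (c : Ctx p S L A Q Y) : ⁅Y, Q⁆ ≤ Y :=
  CfsgLib.CoprimeAction.commutator_le_of_normalizer (c.le_normalizer_Y Q)

theorem Ctx.comm_ne_bot (c : Ctx p S L A Q Y) : ⁅Y, Q⁆ ≠ ⊥ := fun h =>
  c.A_not_centralizer (c.AY.trans (commutator_eq_bot_iff_le_centralizer.1 h))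

theorem Ctx.coprime_of (c : Ctx p S L A Q Y) {T : Subgroup X} (hT : IsPGroup p T)
    (hcop : (Nat.card Y).Coprime p) : (Nat.card T).Coprime (Nat.card Y) := by
  obtain ⟨n, hn⟩ := IsPGroup.iff_card.1 hT
  rw [hn]
  exact hcop.symm.pow_left n

/-- With `|Y|` prime to `p`, `Q` centralizes `Y ∩ L`. -/
theorem Ctx.cent_coprime (c : Ctx p S L A Q Y) (hcop : (Nat.card Y).Coprime p) {U : Subgroup X}
    (hUY : U ≤ Y) (hUL : U ≤ L) : ⁅U, Q⁆ = ⊥ := by
  have h1 : ⁅U, Q⁆ ≤ Q ⊓ Y := le_inf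
    (by rw [commutator_comm]; exact CfsgLib.CoprimeAction.commutator_le_of_normalizer (hUL.trans c.LQ))
    ((commutator_mono hUY le_rfl).trans c.comm_le)
  exact le_bot_iff.1 (Subgroup.inf_eq_bot_of_coprime (c.coprime_of c.Qp hcop) ▸ h1)

/-- The case in which `Y` is not perfect. -/
theorem Ctx.nonperfect (c : Ctx p S L A Q Y) (hY : ⁅Y, Y⁆ ≠ Y) :
    A = Y ∧ ∃ t : ℕ, t.Prime ∧ t ≠ p ∧ IsPGroup t Y ∧
      ∃ _ : Group.IsNilpotent ↥Y, Group.nilpotencyClass ↥Y ≤ 2 := by
  haveI := c.Y_normal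
  have hcen : ⁅⁅Y, Y⁆, Y⁆ = ⊥ :=
    ((c.normal_in inferInstance (commutator_le_self Y)).resolve_left hY).2
  have hlow : Subgroup.lowerCentralSeries (⊤ : Subgroup ↥Y) 2 = ⊥ := by
    refine Subgroup.lowerCentralSeries_succ_eq_bot _ ?_
    rw [Subgroup.top_lowerCentralSeries_one]
    intro x hx
    rw [mem_center_iff]
    intro y
    have h1 : (x : X) ∈ ⁅Y, Y⁆ := by
      rw [← map_subtype_commutator]; exact ⟨x, hx, rfl⟩
    exact Subtype.ext (mem_centralizer_iff.1 (commutator_eq_bot_iff_le_centralizer.1 hcen h1) y y.2)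
  haveI hnil : Group.IsNilpotent ↥Y := Subgroup.nilpotent_iff_lowerCentralSeries.2 ⟨2, hlow⟩
  have hclass : Group.nilpotencyClass ↥Y ≤ 2 := Subgroup.lowerCentralSeries_eq_bot_iff_nilpotencyClass_le.1 hlow
  obtain ⟨t, ht, hYt⟩ : ∃ t : ℕ, t.Prime ∧ IsPGroup t Y := by
    by_contra hcon
    refine c.Y_not_L ?_
    have hF : (⊤ : Subgroup ↥Y) ≤ Cfsg.fittingSubgroup ↥Y :=
      CfsgLib.Components.le_fittingSubgroup inferInstance
        (Group.nilpotent_of_mulEquiv Subgroup.topEquiv.symm)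
    rw [CfsgLib.Components.fittingSubgroup_eq_iSup] at hF
    have hF' := Subgroup.map_mono (f := Y.subtype) hF
    rw [← MonoidHom.range_eq_map, Subgroup.range_subtype, Subgroup.map_iSup] at hF'
    refine hF'.trans (iSup_le fun q => ?_)
    haveI : (Cfsg.pCore (q : ℕ) ↥Y).Characteristic := CfsgLib.Components.pCore_characteristic _
    rcases c.normal_in (CfsgLib.Components.map_subtype_normal c.Y_normal (Cfsg.pCore (q : ℕ) ↥Y))
      (map_subtype_le _) with h | h
    · refine absurd ?_ hcon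
      have h2 := (CfsgLib.Components.pCore_isPGroup (G := ↥Y) (q : ℕ)).map Y.subtype
      rw [h] at h2
      exact ⟨q, Nat.prime_of_mem_primeFactors q.2, h2⟩
    · exact h.1
  haveI : Fact t.Prime := ⟨ht⟩
  have htp : t ≠ p := fun e => c.Y_ne_bot (c.sn_bot c.Y_normal.isSubnormal (e ▸ hYt))
  have hcop : (Nat.card Y).Coprime p := by
    obtain ⟨n, hn⟩ := IsPGroup.iff_card.1 hYt
    rw [hn]
    exact ((Nat.coprime_primes ht hp.out).2 htp).pow_left n
  have hB : ⁅Y, Q⁆ = Y := by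
    refine (c.normal_in c.comm_normal c.comm_le).resolve_right fun h => c.comm_ne_bot ?_
    rw [← CfsgLib.CoprimeAction.commutator_commutator_eq (c.le_normalizer_Y Q) (c.coprime_of c.Qp hcop)
      (Or.inr inferInstance)]
    exact c.cent_coprime hcop c.comm_le h.1
  refine ⟨?_, t, ht, htp, hYt, hnil, hclass⟩
  set Φ := (frattini ↥Y).map Y.subtype with hΦ
  haveI hΦn : Φ.Normal := CfsgLib.Components.map_subtype_normal c.Y_normal (frattini ↥Y)
  set π := QuotientGroup.mk' Φ with hπ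
  have hsurj := QuotientGroup.mk'_surjective Φ
  set V := Y.map π with hV
  have hcoY : V.comap π = Y := by
    rw [hV, comap_map_eq, QuotientGroup.ker_mk', sup_eq_left]
    exact map_subtype_le _
  have hVc : V ≤ centralizer (V : Set (X ⧸ Φ)) := by
    rw [← commutator_eq_bot_iff_le_centralizer, hV, ← map_commutator, Subgroup.map_eq_bot_iff,
      QuotientGroup.ker_mk', ← map_subtype_commutator]
    exact map_mono (CfsgLib.CoprimeAction.commutator_le_frattini' hYt)
  have hVe : ∀ v ∈ V, v ^ t = 1 := by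
    rintro _ ⟨y, hy, rfl⟩
    rw [← map_pow]
    exact (QuotientGroup.eq_one_iff _).2
      ⟨⟨y, hy⟩ ^ t, CfsgLib.CoprimeAction.pow_mem_frattini hYt ⟨y, hy⟩, rfl⟩
  have hUV : A.map π ≤ V := map_mono c.AY
  obtain ⟨W, hWV, hUW, hUWV⟩ := exists_compl ht hVc hVe hUV
  have hVab : IsMulCommutative V :=
    ⟨⟨fun a b => Subtype.ext (mem_centralizer_iff.1 (hVc b.2) a a.2)⟩⟩
  have hVt : IsPGroup t V := hYt.map π
  have hcopV : ∀ T : Subgroup X, IsPGroup p T → (Nat.card ↥(T.map π)).Coprime (Nat.card V) := by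
    intro T hT
    obtain ⟨n, hn⟩ := IsPGroup.iff_card.1 (hT.map π)
    obtain ⟨m, hm⟩ := IsPGroup.iff_card.1 hVt
    rw [hn, hm]
    exact Nat.Coprime.pow n m ((Nat.coprime_primes hp.out ht).2 (Ne.symm htp))
  have hmapn : ∀ T U : Subgroup X, T ≤ normalizer (U : Set X) →
      T.map π ≤ normalizer ((U.map π : Subgroup (X ⧸ Φ)) : Set (X ⧸ Φ)) := fun T U h =>
    (map_mono h).trans (le_normalizer_map π)
  obtain ⟨W', hW'V, hSW', hUW', hUWV'⟩ := CfsgLib.PLocalBasics.invariant_complement V (S.map π) (A.map π)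
    hVab (hmapn S Y (c.le_normalizer_Y S)) (hcopV S c.hS) hUV (hmapn S A c.SA) W hWV hUW hUWV
  have hW'Y : W'.comap π ≤ Y := (comap_mono hW'V).trans hcoY.le
  have hSW : S ≤ normalizer ((W'.comap π : Subgroup X) : Set X) := by
    intro s hs
    rw [mem_normalizer_iff]
    intro x
    rw [mem_comap, mem_comap, map_mul, map_mul, map_inv]
    exact mem_normalizer_iff.1 (hSW' (mem_map_of_mem π hs)) (π x)
  rcases c.dich_inv hSW with h | h
  · exfalso
    have hA : A.map π = ⊥ := by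
      rw [eq_bot_iff, ← hUW']
      exact le_inf le_rfl (map_le_iff_le_comap.2 h)
    rw [Subgroup.map_eq_bot_iff, QuotientGroup.ker_mk'] at hA
    have hYΦ : Y ≤ Φ := c.Y_le hΦn hA
    have htop : frattini ↥Y = ⊤ := by
      refine map_injective Y.subtype_injective (le_antisymm (map_mono le_top) ?_)
      rw [← MonoidHom.range_eq_map, Subgroup.range_subtype]
      exact hYΦ
    have h2 : (⊥ : Subgroup ↥Y) = ⊤ := frattini_nongenerating (by rw [htop, sup_top_eq])
    haveI : Nontrivial ↥Y := (nontrivial_iff_ne_bot Y).2 c.Y_ne_bot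
    exact bot_ne_top h2
  · have hW'Q : ⁅W', Q.map π⁆ = ⊥ := by
      rw [← map_comap_eq_self_of_surjective hsurj W', ← map_commutator, c.cent_coprime hcop hW'Y h,
        Subgroup.map_bot]
    have hVQ : ⁅V, Q.map π⁆ = V := by rw [hV, ← map_commutator, hB]
    haveI := hVab
    have h0 := CfsgLib.CoprimeAction.centralizer_inf_commutator_eq_bot (V := V) (A := Q.map π)
      (hmapn Q Y (c.le_normalizer_Y Q)) (hcopV Q c.Qp)
    rw [hVQ] at h0
    have hW'bot : W' = ⊥ := by
      rw [eq_bot_iff, ← h0]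
      exact le_inf (le_inf hW'V (commutator_eq_bot_iff_le_centralizer.1 hW'Q)) hW'V
    rw [hW'bot, sup_bot_eq] at hUWV'
    refine le_antisymm c.AY ?_
    have hYA : Y ≤ A ⊔ Φ := by
      calc Y = V.comap π := hcoY.symm
        _ = (A.map π).comap π := by rw [hUWV']
        _ ≤ A ⊔ Φ := by rw [comap_map_eq, QuotientGroup.ker_mk']
    have h2 : A.subgroupOf Y ⊔ frattini ↥Y = ⊤ := by
      refine map_injective Y.subtype_injective (le_antisymm (map_mono le_top) ?_)
      rw [← MonoidHom.range_eq_map, Subgroup.range_subtype, Subgroup.map_sup,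
        map_subgroupOf_eq_of_le c.AY]
      exact hYA
    exact subgroupOf_eq_top.1 (frattini_nongenerating h2)

/-- In the perfect case `Y` is not abelian. -/
theorem Ctx.not_central (c : Ctx p S L A Q Y) (hY : ⁅Y, Y⁆ = Y) : ⁅Y, Y⁆ ≠ ⊥ :=
  hY.symm ▸ c.Y_ne_bot

/-- The case in which `Y` is perfect: it is the product of its components. -/
theorem Ctx.perfect_layer (c : Ctx p S L A Q Y) (hY : ⁅Y, Y⁆ = Y) : Cfsg.layer ↥Y = ⊤ := by
  haveI := c.Y_normal
  by_contra hne
  haveI : (Cfsg.layer ↥Y).Characteristic := CfsgLib.Components.layer_characteristic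
  haveI : (Cfsg.fittingSubgroup ↥Y).Characteristic := CfsgLib.Components.fittingSubgroup_characteristic
  have hnt : ∀ N : Subgroup ↥Y, N ≠ ⊤ → N.map Y.subtype ≠ Y := fun N hN e => hN
    (map_injective Y.subtype_injective (e.trans (by rw [← MonoidHom.range_eq_map, Subgroup.range_subtype])))
  have hcent : ∀ N : Subgroup ↥Y, N.Characteristic → N ≠ ⊤ → N ≤ center ↥Y := by
    intro N hN hNt x hx
    haveI := hN
    have h := ((c.normal_in (CfsgLib.Components.map_subtype_normal c.Y_normal N) (map_subtype_le _)).resolve_left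
      (hnt N hNt)).2
    rw [mem_center_iff]
    intro y
    exact Subtype.ext (mem_centralizer_iff.1 (commutator_eq_bot_iff_le_centralizer.1 h ⟨x, hx, rfl⟩) y y.2)
  have hFne : Cfsg.fittingSubgroup ↥Y ≠ ⊤ := by
    intro e
    have hn := CfsgLib.Components.fittingSubgroup_isNilpotent (G := ↥Y)
    rw [e] at hn
    haveI := hn
    haveI : Group.IsNilpotent ↥Y := Group.nilpotent_of_mulEquiv Subgroup.topEquiv
    exact c.Y_ne_bot (eq_bot_of_perfect_solvable hY inferInstance)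
  have hle : Cfsg.generalizedFittingSubgroup ↥Y ≤ center ↥Y :=
    sup_le (hcent _ inferInstance hne) (hcent _ inferInstance hFne)
  have htop : (⊤ : Subgroup ↥Y) ≤ center ↥Y := by
    refine le_trans ?_ ((CfsgLib.Components.centralizer_generalizedFittingSubgroup_le (G := ↥Y)).trans hle)
    intro x _
    rw [mem_centralizer_iff]
    intro y hy
    exact (mem_center_iff.1 (hle hy) x).symm
  refine c.not_central hY ?_
  rw [eq_bot_iff, commutator_le]
  intro a ha b hb
  rw [mem_bot, commutatorElement_eq_one_iff_mul_comm]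
  exact congrArg Subtype.val (mem_center_iff.1 (htop (mem_top (⟨b, hb⟩ : ↥Y))) ⟨a, ha⟩)

/-- In the perfect case `p` divides the order of `Y`. -/
theorem Ctx.perfect_dvd (c : Ctx p S L A Q Y) (hY : ⁅Y, Y⁆ = Y) : p ∣ Nat.card Y := by
  by_contra hdvd
  haveI := c.Y_normal
  have hcop : (Nat.card Y).Coprime p := (hp.out.coprime_iff_not_dvd.2 hdvd).symm
  have hsol : Group.IsSolvable S := by
    haveI := c.hS.isNilpotent
    infer_instance
  have hR : ∀ q : ℕ, q.Prime → ∃ R : Subgroup X, R ≤ Y ∧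
      Nat.card R = q ^ (Nat.card Y).factorization q ∧ S ≤ normalizer (R : Set X) := by
    intro q hq
    haveI : Fact q.Prime := ⟨hq⟩
    obtain ⟨R, hR⟩ := CfsgLib.CoprimeAction.exists_invariant_sylow (c.le_normalizer_Y S)
      (c.coprime_of c.hS hcop) (Or.inl hsol) q
    exact ⟨_, map_subtype_le _, CfsgLib.CoprimeAction.card_sylow_map R, hR⟩
  obtain ⟨q₀, hq₀, R₀, hR₀Y, hR₀c, hSR₀, hAR₀⟩ : ∃ q₀ : ℕ, q₀.Prime ∧ ∃ R₀ : Subgroup X, R₀ ≤ Y ∧
      Nat.card R₀ = q₀ ^ (Nat.card Y).factorization q₀ ∧ S ≤ normalizer (R₀ : Set X) ∧ A ≤ R₀ := by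
    by_contra hcon
    refine c.Y_not_L (inf_eq_left.1 (eq_of_le_of_card_ge inf_le_left (Nat.le_of_dvd Nat.card_pos ?_)))
    rw [← Nat.factorization_prime_le_iff_dvd Nat.card_pos.ne' Nat.card_pos.ne']
    intro q hq
    obtain ⟨R, hRY, hRc, hSR⟩ := hR q hq
    have hRL : R ≤ L := (c.dich_inv hSR).resolve_left fun h => hcon ⟨q, hq, R, hRY, hRc, hSR, h⟩
    exact (hq.pow_dvd_iff_le_factorization Nat.card_pos.ne').1 (hRc ▸ card_dvd_of_le (le_inf hRY hRL))
  haveI : Fact q₀.Prime := ⟨hq₀⟩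
  have hR₀p : IsPGroup q₀ R₀ := IsPGroup.of_card hR₀c
  have hrest : ∀ q : ℕ, q.Prime → q ≠ q₀ →
      (Nat.card Y).factorization q ≤ (Nat.card ↥(Y ⊓ L)).factorization q := by
    intro q hq hne
    haveI : Fact q.Prime := ⟨hq⟩
    obtain ⟨R, hRY, hRc, hSR⟩ := hR q hq
    have hRL : R ≤ L := (c.dich_inv hSR).resolve_left fun h => c.A_not_L ?_
    · exact (hq.pow_dvd_iff_le_factorization Nat.card_pos.ne').1 (hRc ▸ card_dvd_of_le (le_inf hRY hRL))
    · have hd := IsPGroup.disjoint_of_ne q q₀ hne R R₀ (IsPGroup.of_card hRc) hR₀p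
      intro a ha
      rw [mem_bot.1 (hd.le_bot ⟨h ha, hAR₀ ha⟩)]
      exact one_mem L
  -- `Y` is the product of `R₀` and `Y ∩ L`
  have hprod : (R₀ : Set X) * ((Y ⊓ L : Subgroup X) : Set X) = (Y : Set X) := by
    have hsub : (R₀ : Set X) * ((Y ⊓ L : Subgroup X) : Set X) ⊆ (Y : Set X) := by
      rintro _ ⟨r, hr, d, hd, rfl⟩
      exact Y.mul_mem (hR₀Y hr) (mem_inf.1 hd).1
    refine Set.eq_of_subset_of_ncard_le hsub ?_ (Set.toFinite _)
    have hc := CfsgLib.Factorization.card_mul_set R₀ (Y ⊓ L)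
    set D := Y ⊓ L
    rw [← Nat.card_coe_set_eq]
    refine Nat.le_of_mul_le_mul_right (c := Nat.card ↥(R₀ ⊓ D)) ?_ Nat.card_pos
    rw [hc]
    refine Nat.le_of_dvd (Nat.mul_pos Nat.card_pos Nat.card_pos) ?_
    show Nat.card ↥Y * _ ∣ _
    rw [← Nat.factorization_prime_le_iff_dvd (Nat.mul_pos Nat.card_pos Nat.card_pos).ne'
      (Nat.mul_pos Nat.card_pos Nat.card_pos).ne']
    intro q hq
    rw [Nat.factorization_mul Nat.card_pos.ne' Nat.card_pos.ne',
      Nat.factorization_mul Nat.card_pos.ne' Nat.card_pos.ne', Finsupp.add_apply, Finsupp.add_apply]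
    have h2 := (Nat.factorization_le_iff_dvd Nat.card_pos.ne' Nat.card_pos.ne').2
      (card_dvd_of_le (inf_le_right : R₀ ⊓ D ≤ D)) q
    have h3 := (Nat.factorization_le_iff_dvd Nat.card_pos.ne' Nat.card_pos.ne').2
      (card_dvd_of_le (inf_le_left : R₀ ⊓ D ≤ R₀)) q
    rw [hR₀c, hq₀.factorization_pow] at h3 ⊢
    rcases eq_or_ne q q₀ with rfl | hne
    · rw [Finsupp.single_eq_same] at h3 ⊢
      omega
    · have := hrest q hq hne
      rw [Finsupp.single_eq_of_ne hne] at h3 ⊢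
      omega
  have hBR : ⁅Y, Q⁆ ≤ R₀ := by
    rw [commutator_le]
    intro y hy g hg
    have hy' : y ∈ (R₀ : Set X) * ((Y ⊓ L : Subgroup X) : Set X) := hprod.symm ▸ hy
    obtain ⟨r, hr, d, hd, rfl⟩ := hy'
    have hdg : d * g = g * d := by
      have h1 := commutator_eq_bot_iff_le_centralizer.1
        (c.cent_coprime hcop (inf_le_left : Y ⊓ L ≤ Y) inf_le_right) hd
      exact (mem_centralizer_iff.1 h1 g hg).symm
    have e : ⁅r * d, g⁆ = r * (g * r⁻¹ * g⁻¹) := by
      rw [commutatorElement_def, _root_.mul_inv_rev,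
        show r * d * g * (d⁻¹ * r⁻¹) * g⁻¹ = r * (d * g * d⁻¹) * r⁻¹ * g⁻¹ by group, hdg]
      group
    show ⁅r * d, g⁆ ∈ R₀
    rw [e]
    exact mul_mem hr (CfsgLib.CoprimeAction.conj_mem hSR₀ (c.QS hg) (inv_mem hr))
  rcases c.normal_in c.comm_normal c.comm_le with h | h
  · rw [h] at hBR
    haveI := (hR₀p.to_le hBR).isNilpotent
    exact c.Y_ne_bot (eq_bot_of_perfect_solvable hY inferInstance)
  · refine c.comm_ne_bot ?_
    have h1 : ⁅⁅Q, Y⁆, Y⁆ = ⊥ := by rw [commutator_comm Q Y]; exact h.2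
    have h2 := commutator_commutator_eq_bot_of_rotate (H₁ := Y) (H₂ := Y) (H₃ := Q) h.2 h1
    rwa [hY] at h2

/-- In the perfect case `S` permutes the components transitively. -/
theorem Ctx.perfect_transitive (c : Ctx p S L A Q Y) (hY : ⁅Y, Y⁆ = Y) {K₁ K₂ : Subgroup X}
    (h₁ : Cfsg.IsComponent K₁) (h₁' : K₁ ≤ Y) (h₂ : Cfsg.IsComponent K₂) (h₂' : K₂ ≤ Y) :
    ∃ s ∈ S, K₂ = K₁.map (MulAut.conj s).toMonoidHom := by
  haveI := c.Y_normal
  set comp : Set (Subgroup X) := {K | Cfsg.IsComponent K ∧ K ≤ Y} with hcomp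
  have hgen : Y ≤ sSup comp := by
    calc Y = (Cfsg.layer ↥Y).map Y.subtype := by
          rw [c.perfect_layer hY, ← MonoidHom.range_eq_map, Subgroup.range_subtype]
      _ ≤ sSup comp := map_le_iff_le_comap.2 (sSup_le fun K hK => map_le_iff_le_comap.1
          (le_sSup ⟨CfsgLib.Components.isComponent_map_subtype c.Y_normal.isSubnormal hK, map_subtype_le K⟩))
  have hYconj : ∀ (g : X) (K : Subgroup X), K ≤ Y → K.map (MulAut.conj g).toMonoidHom ≤ Y := by
    intro g K hK x hx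
    obtain ⟨k, hk, rfl⟩ := hx
    exact c.Y_normal.conj_mem k (hK hk) g
  have hconj : ∀ (g : X) (K : Subgroup X), K ∈ comp → K.map (MulAut.conj g).toMonoidHom ∈ comp :=
    fun g K hK => ⟨CfsgLib.Components.isComponent_conj hK.1 g, hYconj g K hK.2⟩
  set orb : Subgroup X → Subgroup X := fun K => ⨆ s : ↥S, K.map (MulAut.conj (s : X)).toMonoidHom with horb
  have orb_le : ∀ K, K ≤ orb K := fun K => le_iSup_of_le 1 (CfsgLib.Subnormal.conj_one K).ge
  have orb_L : ∀ K, K ≤ L → orb K ≤ L := fun K hK => iSup_le fun s => (map_mono hK).trans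
    (CfsgLib.Subnormal.conj_eq_self_iff.2 (le_normalizer (c.SL s.2))).le
  have orb_S : ∀ K, S ≤ normalizer (orb K : Set X) := fun K => le_normalizer_of_conj_le fun g hg => by
    show (⨆ s : ↥S, K.map (MulAut.conj (s : X)).toMonoidHom).map (MulAut.conj g).toMonoidHom ≤ _
    rw [Subgroup.map_iSup]
    refine iSup_le fun u => le_iSup_of_le ⟨g * u, mul_mem hg u.2⟩ ?_
    rw [CfsgLib.Subnormal.conj_conj]
  obtain ⟨K₀, hK₀, hAK₀⟩ : ∃ K₀ ∈ comp, A ≤ orb K₀ := by
    by_contra hcon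
    push Not at hcon
    exact c.Y_not_L (hgen.trans (sSup_le fun K hK =>
      (orb_le K).trans ((c.dich_inv (orb_S K)).resolve_left (hcon K hK))))
  have hcomm : ∀ {M N : Subgroup X}, M ∈ comp → N ∈ comp → M ≠ N → M ≤ centralizer (N : Set X) :=
    fun hM hN h => commutator_eq_bot_iff_le_centralizer.1 (CfsgLib.Components.components_commute hM.1 hN.1 h)
  have horbc : ∀ {M N : Subgroup X}, M ∈ comp → N ∈ comp →
      (∀ s ∈ S, N ≠ M.map (MulAut.conj s).toMonoidHom) → orb M ≤ centralizer (N : Set X) :=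
    fun hM hN h => iSup_le fun s => hcomm (hconj _ _ hM) hN (fun e => h s s.2 e.symm)
  -- components outside the distinguished orbit lie in `L`
  have hout : ∀ M ∈ comp, (∀ s ∈ S, M ≠ K₀.map (MulAut.conj s).toMonoidHom) → M ≤ L := by
    intro M hM hne
    refine (orb_le M).trans ((c.dich_inv (orb_S M)).resolve_left fun hA => c.not_central hY ?_)
    have hAc : A ≤ centralizer (Y : Set X) := by
      refine le_trans ?_ (centralizer_le (SetLike.coe_subset_coe.2 hgen))
      rw [le_centralizer_iff]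
      refine sSup_le fun N hN => ?_
      rw [le_centralizer_iff]
      by_cases hNin : ∃ s ∈ S, N = K₀.map (MulAut.conj s).toMonoidHom
      · obtain ⟨s, hs, rfl⟩ := hNin
        refine hA.trans (horbc hM hN fun t ht e => hne (t⁻¹ * s) (mul_mem (inv_mem ht) hs) ?_)
        rw [← CfsgLib.Subnormal.conj_conj, e, CfsgLib.Subnormal.conj_conj, inv_mul_cancel,
          CfsgLib.Subnormal.conj_one]
      · push Not at hNin
        exact hAK₀.trans (horbc hK₀ hN hNin)
    exact commutator_eq_bot_iff_le_centralizer.2 (c.Y_le normal_centralizer hAc)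
  have hK₀L : ¬ K₀ ≤ L := fun h => c.A_not_L (hAK₀.trans (orb_L K₀ h))
  have hLn : L ≤ normalizer (orb K₀ : Set X) := le_normalizer_of_conj_le fun l hl => by
    show (⨆ s : ↥S, K₀.map (MulAut.conj (s : X)).toMonoidHom).map (MulAut.conj l).toMonoidHom ≤ _
    rw [Subgroup.map_iSup]
    refine iSup_le fun s => ?_
    rw [CfsgLib.Subnormal.conj_conj]
    by_cases hin : ∃ t ∈ S, K₀.map (MulAut.conj (l * s)).toMonoidHom = K₀.map (MulAut.conj t).toMonoidHom
    · obtain ⟨t, ht, e⟩ := hin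
      rw [e]
      exact le_iSup_of_le ⟨t, ht⟩ le_rfl
    · push Not at hin
      have h := hout _ (hconj _ _ hK₀) hin
      refine absurd (fun k hk => ?_) hK₀L
      have h1 : l * s * k * (l * s)⁻¹ ∈ L := h ⟨k, hk, rfl⟩
      have hls : l * s ∈ L := mul_mem hl (c.SL s.2)
      simpa [mul_assoc] using mul_mem (mul_mem (inv_mem hls) h1) hls
  have hYorb : Y ≤ orb K₀ :=
    c.Y_le (c.normal_of (hAK₀.trans le_normalizer) hLn) hAK₀
  have hall : ∀ M ∈ comp, ∃ s ∈ S, M = K₀.map (MulAut.conj s).toMonoidHom := by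
    intro M hM
    by_contra hne
    push Not at hne
    have hc' : ⁅M, Y⁆ = ⊥ := by
      rw [commutator_eq_bot_iff_le_centralizer, le_centralizer_iff]
      exact hYorb.trans (horbc hK₀ hM hne)
    haveI := CfsgLib.Components.quasisimple_nontrivial hM.1.2
    exact (nontrivial_iff_ne_bot M).1 inferInstance
      (eq_bot_of_self_comm (CfsgLib.Components.quasisimple_commutator hM.1.2) hM.2 hc')
  obtain ⟨a, ha, rfl⟩ := hall K₁ ⟨h₁, h₁'⟩
  obtain ⟨b, hb, rfl⟩ := hall K₂ ⟨h₂, h₂'⟩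
  exact ⟨b * a⁻¹, mul_mem hb (inv_mem ha), by rw [CfsgLib.Subnormal.conj_conj, inv_mul_cancel_right]⟩

/-- `A` lies in the generalized Fitting subgroup. -/
theorem Ctx.le_gfit (c : Ctx p S L A Q Y) : A ≤ Cfsg.generalizedFittingSubgroup X := by
  refine c.AY.trans ?_
  by_cases hY : ⁅Y, Y⁆ = Y
  · refine le_trans ?_ CfsgLib.Components.layer_le_generalizedFittingSubgroup
    have h := CfsgLib.Components.layer_map_subtype_le c.Y_normal.isSubnormal
    rwa [c.perfect_layer hY, ← MonoidHom.range_eq_map, Subgroup.range_subtype] at h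
  · obtain ⟨-, t, -, -, -, hn, -⟩ := c.nonperfect hY
    exact (CfsgLib.Components.le_fittingSubgroup c.Y_normal hn).trans
      CfsgLib.Components.fittingSubgroup_le_generalizedFittingSubgroup

end CfsgLib.IsolatedPMin
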